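import Cfsg.Agent.H308.CA.Defs
import Cfsg.Agent.LieClassical.SLGen

/-!
# `SU₆` inside `SL₆(K)` as the fixed points of `g ↦ J (g⁻¹)^* J⁻¹` (helper346, S3852, T9 twisted)

* `ta` : the automorphism `g ↦ J (g⁻¹)^* J⁻¹`, `J` antidiagonal with alternating signs; `ta_transvection`;
* `Ps hl hb h2` : `SU (Fin 6) K →* SL₆(K)`, with image the fixed points of `ta` (`ta_Ps`, `exists_Ps`).
-/

set_option autoImplicit false

namespace Cfsg.Agent.H346.Car

open Matrix Cfsg.Agent.H308.CA

/-- `SL₆(K)` -/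
abbrev SL6 (K : Type) [Field K] : Type := Matrix.SpecialLinearGroup (Fin 6) K

/-- the signs -/
def sg6 : Fin 6 → ℤ := ![1, -1, 1, -1, 1, -1]

variable {K : Type} [Field K]

/-- the antidiagonal matrix with alternating signs -/
def Jm (K : Type) [Field K] : Matrix (Fin 6) (Fin 6) K := Matrix.of fun i j => if i = Fin.rev j then ((sg6 j : ℤ) : K) else 0

theorem Jm_apply (i j : Fin 6) : Jm K i j = if i = Fin.rev j then ((sg6 j : ℤ) : K) else 0 := rfl

theorem Jm_mul_neg : Jm K * -Jm K = 1 := by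
  ext i j
  rw [Matrix.mul_neg, Matrix.neg_apply, Matrix.mul_apply, Finset.sum_eq_single (Fin.rev j)]
  · rw [Jm_apply, Jm_apply, if_pos rfl, Fin.rev_rev, Matrix.one_apply]
    have h : ∀ j : Fin 6, -(sg6 (Fin.rev j) * sg6 j) = 1 := by decide
    split_ifs
    · have h1 := congrArg (fun a : ℤ => (a : K)) (h j)
      simpa using h1
    · rw [zero_mul, neg_zero]
  · intro b _ hb
    rw [Jm_apply b j, if_neg hb, mul_zero]
  · intro h
    exact absurd (Finset.mem_univ _) h

theorem neg_mul_Jm : -Jm K * Jm K = 1 := mul_eq_one_comm.1 Jm_mul_neg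

section

variable [StarRing K]

theorem star_intCast' (n : ℤ) : star ((n : ℤ) : K) = (n : K) := map_intCast (starRingEnd K) n

theorem star_Jm : star (Jm K) = -Jm K := by
  ext i j
  rw [Matrix.star_apply, Matrix.neg_apply, Jm_apply, Jm_apply]
  have h : ∀ i j : Fin 6, (j = Fin.rev i ↔ i = Fin.rev j) ∧ (i = Fin.rev j → sg6 i = -sg6 j) := by decide
  by_cases hij : i = Fin.rev j
  · rw [if_pos hij, if_pos ((h i j).1.2 hij), star_intCast', (h i j).2 hij, Int.cast_neg]
  · rw [if_neg hij, if_neg (mt (h i j).1.1 hij), star_zero, neg_zero]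

/-- `g ↦ J (g⁻¹)^* J⁻¹` on matrices -/
theorem ta_aux (a b : SL6 K) : Jm K * star ((a * b : SL6 K)⁻¹ : SL6 K).1 * -Jm K =
    (Jm K * star (a⁻¹ : SL6 K).1 * -Jm K) * (Jm K * star (b⁻¹ : SL6 K).1 * -Jm K) := by
  rw [_root_.mul_inv_rev, Matrix.SpecialLinearGroup.coe_mul, star_mul]
  calc _ = Jm K * star (a⁻¹ : SL6 K).1 * 1 * star (b⁻¹ : SL6 K).1 * -Jm K := by
        simp only [Matrix.mul_assoc, Matrix.mul_one]
    _ = _ := by rw [← neg_mul_Jm]; simp only [Matrix.mul_assoc]

theorem det_star (M : Matrix (Fin 6) (Fin 6) K) : (star M).det = star M.det := Matrix.det_conjTranspose M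

/-- the automorphism `g ↦ J (g⁻¹)^* J⁻¹` -/
def ta : SL6 K →* SL6 K :=
  MonoidHom.mk' (fun g => ⟨Jm K * star (g⁻¹ : SL6 K).1 * -Jm K, by
    rw [Matrix.det_mul, Matrix.det_mul, det_star, (g⁻¹ : SL6 K).2, star_one, mul_one, ← Matrix.det_mul, Jm_mul_neg,
      Matrix.det_one]⟩) fun a b => Subtype.ext (ta_aux a b)

theorem coe_ta (g : SL6 K) : (ta g).1 = Jm K * star (g⁻¹ : SL6 K).1 * -Jm K := rfl

omit [StarRing K] in
theorem J_single_J (i j : Fin 6) (a : K) : Jm K * Matrix.single j i a * -Jm K =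
    Matrix.single (Fin.rev j) (Fin.rev i) ((sg6 i * sg6 j : ℤ) * a) := by
  ext k l
  rw [Matrix.mul_neg, Matrix.neg_apply, Matrix.mul_apply, Finset.sum_eq_single i]
  · rw [Matrix.mul_apply, Finset.sum_eq_single j]
    · rw [Matrix.single_apply, if_pos ⟨rfl, rfl⟩, Jm_apply, Jm_apply, Matrix.single_apply]
      have h : ∀ i l : Fin 6, i = Fin.rev l → sg6 l = - sg6 i := by decide
      by_cases hk : k = Fin.rev j
      · by_cases hl : i = Fin.rev l
        · rw [if_pos hk, if_pos hl, if_pos ⟨hk.symm, by rw [hl, Fin.rev_rev]⟩, h i l hl]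
          push_cast
          ring
        · have h3 : ¬ (Fin.rev j = k ∧ Fin.rev i = l) := fun h2 => hl (by rw [← h2.2, Fin.rev_rev])
          rw [if_neg hl, if_neg h3, mul_zero, neg_zero]
      · have h3 : ¬ (Fin.rev j = k ∧ Fin.rev i = l) := fun h2 => hk h2.1.symm
        rw [if_neg hk, if_neg h3, zero_mul, zero_mul, neg_zero]
    · intro b _ hb
      rw [Matrix.single_apply, if_neg (fun h2 => hb h2.1.symm), mul_zero]
    · intro h
      exact absurd (Finset.mem_univ _) h
  · intro b _ hb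
    rw [Matrix.mul_apply, Finset.sum_eq_zero, zero_mul]
    intro c _
    rw [Matrix.single_apply, if_neg (fun h2 => hb h2.2.symm), mul_zero]
  · intro h
    exact absurd (Finset.mem_univ _) h

theorem rev_ne {i j : Fin 6} (hij : i ≠ j) : Fin.rev j ≠ Fin.rev i := fun h => hij (Fin.rev_injective h).symm

theorem ta_transvection {i j : Fin 6} (hij : i ≠ j) (a : K) :
    ta (Matrix.SpecialLinearGroup.transvection hij a) =
      Matrix.SpecialLinearGroup.transvection (rev_ne hij) (-(sg6 i * sg6 j : ℤ) * star a) := by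
  apply Subtype.ext
  rw [coe_ta, Matrix.SpecialLinearGroup.transvection_inv]
  show Jm K * star (1 + Matrix.single i j (-a)) * -Jm K =
    1 + Matrix.single (Fin.rev j) (Fin.rev i) (-(sg6 i * sg6 j : ℤ) * star a)
  rw [star_add, star_one]
  have h1 : star (Matrix.single i j (-a)) = Matrix.single j i (-star a) := by
    ext k l
    rw [Matrix.star_apply, Matrix.single_apply, Matrix.single_apply]
    by_cases h : i = l ∧ j = k
    · rw [if_pos h, if_pos ⟨h.2, h.1⟩, star_neg]
    · rw [if_neg h, if_neg (fun h2 => h ⟨h2.2, h2.1⟩), star_zero]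
  rw [h1, Matrix.mul_add, Matrix.mul_one, Matrix.add_mul, Jm_mul_neg, J_single_J]
  congr 2
  push_cast
  ring

/-- the fixed points -/
theorem ta_eq_iff (g : SL6 K) : ta g = g ↔ g.1 * Jm K * star g.1 = Jm K := by
  have hg : g.1 * (g⁻¹ : SL6 K).1 = 1 := by
    rw [← Matrix.SpecialLinearGroup.coe_mul, mul_inv_cancel, Matrix.SpecialLinearGroup.coe_one]
  have hg1 : star (g⁻¹ : SL6 K).1 * star g.1 = 1 := by rw [← star_mul, hg, star_one]
  have hg2 : star g.1 * star (g⁻¹ : SL6 K).1 = 1 := mul_eq_one_comm.1 hg1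
  constructor
  · intro h
    have h1 : Jm K * star (g⁻¹ : SL6 K).1 * -Jm K = g.1 := congrArg Subtype.val h
    calc g.1 * Jm K * star g.1 = (Jm K * star (g⁻¹ : SL6 K).1 * -Jm K) * Jm K * star g.1 := by rw [h1]
      _ = Jm K * star (g⁻¹ : SL6 K).1 * (-Jm K * Jm K) * star g.1 := by simp only [Matrix.mul_assoc]
      _ = Jm K * (star (g⁻¹ : SL6 K).1 * star g.1) := by rw [neg_mul_Jm, Matrix.mul_one, Matrix.mul_assoc]
      _ = Jm K := by rw [hg1, Matrix.mul_one]
  · intro h
    apply Subtype.ext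
    rw [coe_ta]
    calc Jm K * star (g⁻¹ : SL6 K).1 * -Jm K = (g.1 * Jm K * star g.1) * star (g⁻¹ : SL6 K).1 * -Jm K := by rw [h]
      _ = g.1 * Jm K * (star g.1 * star (g⁻¹ : SL6 K).1) * -Jm K := by simp only [Matrix.mul_assoc]
      _ = g.1 * (Jm K * -Jm K) := by rw [hg2, Matrix.mul_one, Matrix.mul_assoc]
      _ = g.1 := by rw [Jm_mul_neg, Matrix.mul_one]

/-! ### the orthonormal basis -/

/-- the matrix with `c c^* = λ J` -/
def cm (l b : K) : Matrix (Fin 6) (Fin 6) K :=
  !![1, b, 0, 0, 0, 0;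
     0, 0, 1, b, 0, 0;
     0, 0, 0, 0, 1, b;
     0, 0, 0, 0, l / 2, -(l / 2 * b);
     0, 0, -(l / 2), l / 2 * b, 0, 0;
     l / 2, -(l / 2 * b), 0, 0, 0, 0]

/-- the data of the basis -/
structure Bas (l b : K) : Prop where
  l0 : l ≠ 0
  sl : star l = -l
  bb : b * star b = -1
  two : (2 : K) ≠ 0

variable {l b : K} (B : Bas l b)

include B in
theorem star_half : star (l / 2) = -(l / 2) := by
  have h2 : star (2 : K) = 2 := by
    have := star_intCast' (K := K) 2
    push_cast at this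
    exact this
  rw [div_eq_mul_inv, star_mul, star_inv₀, h2, B.sl]
  ring

include B in
theorem cm_mul_star : cm l b * star (cm l b) = l • Jm K := by
  have h1 := B.bb
  have h2 := B.two
  have h3 := star_half B
  have key : ∀ x : K, star (-x) = -star x := fun x => star_neg x
  have e1 : star (l / 2 * b) = -(l / 2) * star b := by rw [star_mul, h3, mul_comm]
  ext i j
  rw [Matrix.mul_apply, Fin.sum_univ_six]
  simp only [Matrix.star_apply, Matrix.smul_apply, Jm_apply, smul_eq_mul]
  fin_cases i <;> fin_cases j <;>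
    simp [cm, sg6, key, e1, h3, Fin.rev] <;> first | done | (field_simp; linear_combination h1) | (field_simp; linear_combination -h1) | (field_simp; linear_combination l * h1) | (field_simp; linear_combination -l * h1) | (field_simp; linear_combination l ^ 2 * h1) | (field_simp; linear_combination -l ^ 2 * h1)

/-- the inverse matrix -/
def ci (l b : K) : Matrix (Fin 6) (Fin 6) K := l⁻¹ • (star (cm l b) * -Jm K)

include B in
theorem cm_ci : cm l b * ci l b = 1 := by
  rw [ci, Matrix.mul_smul, ← Matrix.mul_assoc, cm_mul_star B, Matrix.smul_mul, smul_smul, inv_mul_cancel₀ B.l0, one_smul,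
    Jm_mul_neg]

include B in
theorem ci_cm : ci l b * cm l b = 1 := mul_eq_one_comm.1 (cm_ci B)

theorem Ps_aux (B : Bas l b) (u v : Matrix (Fin 6) (Fin 6) K) :
    cm l b * (u * v) * ci l b = cm l b * u * ci l b * (cm l b * v * ci l b) := by
  calc cm l b * (u * v) * ci l b = cm l b * u * 1 * v * ci l b := by simp only [Matrix.mul_assoc, Matrix.mul_one]
    _ = _ := by rw [← ci_cm B]; simp only [Matrix.mul_assoc]

/-- **`SU₆ → SL₆(K)`** -/
def Ps (B : Bas l b) : H308.CA.SU (Fin 6) K →* SL6 K :=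
  MonoidHom.mk' (fun u => ⟨cm l b * mt u * ci l b, by
    rw [Matrix.det_mul, Matrix.det_mul, mt_det, mul_one, ← Matrix.det_mul, cm_ci B, Matrix.det_one]⟩)
    fun u v => Subtype.ext (by
      show cm l b * mt (u * v) * ci l b = _
      rw [map_mul, Ps_aux B]
      rfl)

theorem coe_Ps (B : Bas l b) (u : H308.CA.SU (Fin 6) K) : (Ps B u).1 = cm l b * mt u * ci l b := rfl

theorem Ps_cm (B : Bas l b) (u : H308.CA.SU (Fin 6) K) : (Ps B u).1 * cm l b = cm l b * mt u := by
  rw [coe_Ps, Matrix.mul_assoc, ci_cm B, Matrix.mul_one]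

theorem Ps_injective (B : Bas l b) : Function.Injective (Ps B) := by
  intro u v h
  apply mt_injective
  have h1 : cm l b * mt u = cm l b * mt v := by rw [← Ps_cm B, ← Ps_cm B, h]
  calc mt u = ci l b * (cm l b * mt u) := by rw [← Matrix.mul_assoc, ci_cm B, Matrix.one_mul]
    _ = mt v := by rw [h1, ← Matrix.mul_assoc, ci_cm B, Matrix.one_mul]

include B in
theorem J_eq : Jm K = l⁻¹ • (cm l b * star (cm l b)) := by
  rw [cm_mul_star B, smul_smul, inv_mul_cancel₀ B.l0, one_smul]

theorem ta_Ps (B : Bas l b) (u : H308.CA.SU (Fin 6) K) : ta (Ps B u) = Ps B u := by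
  rw [ta_eq_iff]
  have h1 : (Ps B u).1 * (cm l b * star (cm l b)) * star (Ps B u).1 = cm l b * star (cm l b) := by
    calc (Ps B u).1 * (cm l b * star (cm l b)) * star (Ps B u).1 =
          ((Ps B u).1 * cm l b) * star ((Ps B u).1 * cm l b) := by rw [star_mul]; simp only [Matrix.mul_assoc]
      _ = cm l b * (mt u * star (mt u)) * star (cm l b) := by rw [Ps_cm B, star_mul]; simp only [Matrix.mul_assoc]
      _ = cm l b * star (cm l b) := by rw [mt_mul_star, Matrix.mul_one]
  rw [J_eq B, Matrix.mul_smul, Matrix.smul_mul, h1]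

theorem exists_Ps (B : Bas l b) {g : SL6 K} (hg : ta g = g) : ∃ u, Ps B u = g := by
  rw [ta_eq_iff] at hg
  have h0 : l • (l⁻¹ • (1 : Matrix (Fin 6) (Fin 6) K)) = 1 := by rw [smul_smul, mul_inv_cancel₀ B.l0, one_smul]
  have h1 : g.1 * (cm l b * star (cm l b)) * star g.1 = cm l b * star (cm l b) := by
    rw [cm_mul_star B, Matrix.mul_smul, Matrix.smul_mul, hg]
  have h2 : (ci l b * g.1 * cm l b) * star (ci l b * g.1 * cm l b) = 1 := by
    calc (ci l b * g.1 * cm l b) * star (ci l b * g.1 * cm l b) =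
          ci l b * (g.1 * (cm l b * star (cm l b)) * star g.1) * star (ci l b) := by
          rw [star_mul, star_mul]; simp only [Matrix.mul_assoc]
      _ = (ci l b * cm l b) * star (ci l b * cm l b) := by rw [h1, star_mul]; simp only [Matrix.mul_assoc]
      _ = 1 := by rw [ci_cm B, star_one, Matrix.mul_one]
  have h3 : (ci l b * g.1 * cm l b).det = 1 := by
    rw [Matrix.det_mul, Matrix.det_mul, g.2, mul_one, ← Matrix.det_mul, ci_cm B, Matrix.det_one]
  refine ⟨mkSU (ci l b * g.1 * cm l b) (mul_eq_one_comm.1 h2) h3, Subtype.ext ?_⟩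
  rw [coe_Ps, mt_mkSU]
  calc cm l b * (ci l b * g.1 * cm l b) * ci l b = (cm l b * ci l b) * g.1 * (cm l b * ci l b) := by
        simp only [Matrix.mul_assoc]
    _ = g.1 := by rw [cm_ci B, Matrix.one_mul, Matrix.mul_one]

/-- the element `-1` -/
def m1 (K : Type) [Field K] [StarRing K] : H308.CA.SU (Fin 6) K :=
  mkSU (-1) (by rw [star_neg, star_one, neg_mul_neg, mul_one]) (by rw [Matrix.det_neg, Matrix.det_one]; norm_num)

theorem coe_Ps_m1 (B : Bas l b) : (Ps B (m1 K)).1 = -1 := by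
  rw [coe_Ps, m1, mt_mkSU, Matrix.mul_neg, Matrix.neg_mul, Matrix.mul_one, cm_ci B]

/-- the elements `diag(-1, -1, 1, 1, 1, 1)` -/
theorem coe_Ps_diag (B : Bas l b) {u : H308.CA.SU (Fin 6) K}
    (hu : mt u = Matrix.diagonal (fun i : Fin 6 => if (i : ℕ) < 2 then (-1 : K) else 1)) :
    (Ps B u).1 = Matrix.diagonal ![-1, 1, 1, 1, 1, -1] := by
  have h1 : cm l b * mt u = Matrix.diagonal ![-1, 1, 1, 1, 1, -1] * cm l b := by
    rw [hu]
    ext i j
    rw [Matrix.mul_diagonal, Matrix.diagonal_mul]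
    fin_cases i <;> fin_cases j <;> simp [cm]
  rw [coe_Ps, h1, Matrix.mul_assoc, cm_ci B, Matrix.mul_one]

end

end Cfsg.Agent.H346.Car
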